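import Mathlib
import Cfsg.Agent.H867.MinIdx

/-!
# Orders of elements and indices of subgroups: general lemmas (helper842, task 2967 of S3507)

* `MI.double` : a perfect central extension `X → Y` in a simple group, the kernel not in the kernel of the inclusion: twice
  the bound of `Y`;
* `exists_pow_comm` : an element preserving a set with at most `k` elements;
* `exists_conj_pow` : orbits of a `p`-element on the cosets of a subgroup;
* `of_syl` : an element whose order is divisible by `p`, `p ^ 2` not dividing `|G|`;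
* `mat_pow`, `quot_pow` : the orders of unipotent elements;
* `perm9` : the elements of `S₉` have order at most 20.
-/

set_option autoImplicit false

namespace Cfsg.Agent.H842.Cyc

open Subgroup MulAction

universe u v w

section Ord

variable {G : Type u} [Group G] {H : Type v} [Group H]

theorem order_dvd_hom (f : G →* H) {k : ℕ} (hk : ∀ g, f g = 1 → g ^ k = 1) (x : G) :
    orderOf x ∣ orderOf (f x) * k := by
  apply orderOf_dvd_of_pow_eq_one
  rw [pow_mul]
  apply hk
  rw [map_pow, pow_orderOf_eq_one]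

theorem order_le_hom (f : G →* H) {k : ℕ} (hk : ∀ g, f g = 1 → g ^ k = 1) (hk0 : 0 < k) {x : G} (h0 : 0 < orderOf (f x))
    {M : ℕ} (h : orderOf (f x) ≤ M) : orderOf x ≤ M * k :=
  (Nat.le_of_dvd (Nat.mul_pos h0 hk0) (order_dvd_hom f hk x)).trans (Nat.mul_le_mul_right k h)

theorem order_le_pow {x : G} {k : ℕ} (hk : 0 < k) (h0 : 0 < orderOf (x ^ k)) {M : ℕ} (h : orderOf (x ^ k) ≤ M) :
    orderOf x ≤ k * M := by
  have h1 : orderOf x ∣ k * orderOf (x ^ k) := by
    apply orderOf_dvd_of_pow_eq_one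
    rw [pow_mul, pow_orderOf_eq_one]
  exact (Nat.le_of_dvd (Nat.mul_pos hk h0) h1).trans (Nat.mul_le_mul_left k h)

theorem conj_pow_comm (x a : G) (i j : ℕ) (hij : i ≤ j) (h : x ^ i * a * (x ^ i)⁻¹ = x ^ j * a * (x ^ j)⁻¹) :
    x ^ (j - i) * a = a * x ^ (j - i) := by
  obtain ⟨m, rfl⟩ := Nat.exists_eq_add_of_le hij
  rw [Nat.add_sub_cancel_left]
  have h1 : a = x ^ m * a * (x ^ m)⁻¹ := by
    calc a = (x ^ i)⁻¹ * (x ^ i * a * (x ^ i)⁻¹) * x ^ i := by group
      _ = (x ^ i)⁻¹ * (x ^ (i + m) * a * (x ^ (i + m))⁻¹) * x ^ i := by rw [h]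
      _ = _ := by rw [pow_add]; group
  exact (eq_mul_inv_iff_mul_eq.1 h1).symm

/-- An element preserving a set with at most `k` elements. -/
theorem exists_pow_comm {x a : G} {S : Set G} (hfin : S.Finite) (hS : ∀ s ∈ S, x * s * x⁻¹ ∈ S) (ha : a ∈ S) {k : ℕ}
    (hk : S.ncard ≤ k) : ∃ j, 0 < j ∧ j ≤ k ∧ x ^ j * a = a * x ^ j := by
  classical
  have h1 : ∀ i : ℕ, x ^ i * a * (x ^ i)⁻¹ ∈ S := by
    intro i
    induction i with
    | zero => simpa using ha
    | succ i ih =>
      have h2 := hS _ ih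
      have h3 : x * (x ^ i * a * (x ^ i)⁻¹) * x⁻¹ = x ^ (i + 1) * a * (x ^ (i + 1))⁻¹ := by
        rw [pow_succ']; group
      rwa [h3] at h2
  have hc : S.ncard = hfin.toFinset.card := Set.ncard_eq_toFinset_card S hfin
  have h2 : hfin.toFinset.card < (Finset.range (k + 1)).card := by
    rw [Finset.card_range]; omega
  obtain ⟨i, hi, j, hj, hij, h⟩ := Finset.exists_ne_map_eq_of_card_lt_of_maps_to h2
    (f := fun i : ℕ => x ^ i * a * (x ^ i)⁻¹) (fun i _ => by simpa using h1 i)
  rw [Finset.mem_range] at hi hj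
  have hij' : i ≠ j := hij
  rcases lt_or_gt_of_ne hij' with h3 | h3
  · exact ⟨j - i, by omega, by omega, conj_pow_comm x a i j h3.le h⟩
  · exact ⟨i - j, by omega, by omega, conj_pow_comm x a j i h3.le h.symm⟩

/-- An element whose order is divisible by `p`, where `p ^ 2` does not divide `|G|`: a conjugate centralizes a given subgroup
of order `p`. -/
theorem syl_conj [Finite G] {p : ℕ} (hp : p.Prime) (h2 : ¬ p ^ 2 ∣ Nat.card G) {X : Subgroup G} (hX : Nat.card X = p)
    {x : G} (hd : p ∣ orderOf x) : ∃ g : G, g * x * g⁻¹ ∈ centralizer (X : Set G) := by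
  have hpf : Fact p.Prime := ⟨hp⟩
  obtain ⟨m, hm⟩ := hd
  have hx0 : 0 < orderOf x := orderOf_pos x
  have hm0 : m ≠ 0 := by
    rintro rfl
    omega
  have hy : orderOf (x ^ m) = p := by
    rw [orderOf_pow' x hm0, hm]
    rw [Nat.gcd_eq_right (Dvd.intro_left p rfl)]
    exact Nat.mul_div_cancel p (Nat.pos_of_ne_zero hm0)
  have hfac : (Nat.card G).factorization p = 1 := by
    have h3 : p ∣ Nat.card G := by rw [← hX]; exact card_subgroup_dvd_card X
    have h4 : 1 ≤ (Nat.card G).factorization p := (hp.dvd_iff_one_le_factorization Nat.card_pos.ne').1 h3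
    by_contra hne
    apply h2
    have h5 : 2 ≤ (Nat.card G).factorization p := by omega
    exact (hp.pow_dvd_iff_le_factorization Nat.card_pos.ne').2 h5
  have key : ∀ Y : Subgroup G, Nat.card Y = p → ∃ Q : Sylow p G, (Q : Subgroup G) = Y := by
    intro Y hY
    refine ⟨Sylow.ofCard Y ?_, rfl⟩
    rw [hY, hfac, pow_one]
  obtain ⟨Q, hQ⟩ := key X hX
  obtain ⟨R, hR⟩ := key (zpowers (x ^ m)) (by rw [Nat.card_zpowers, hy])
  obtain ⟨g, hg⟩ := MulAction.exists_smul_eq G R Q
  have hg' : (zpowers (x ^ m)).map (MulAut.conj g).toMonoidHom = X := by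
    rw [← hQ, ← hR, ← hg]; rfl
  refine ⟨g, ?_⟩
  rw [mem_centralizer_iff]
  intro z hz
  rw [SetLike.mem_coe, ← hg'] at hz
  obtain ⟨w, hw, rfl⟩ := hz
  obtain ⟨k, rfl⟩ := mem_zpowers_iff.1 hw
  have h5 : (x ^ m) ^ k * x = x * (x ^ m) ^ k := by
    exact ((Commute.refl x).pow_left m).zpow_left k
  show g * (x ^ m) ^ k * g⁻¹ * (g * x * g⁻¹) = g * x * g⁻¹ * (g * (x ^ m) ^ k * g⁻¹)
  calc g * (x ^ m) ^ k * g⁻¹ * (g * x * g⁻¹) = g * ((x ^ m) ^ k * x) * g⁻¹ := by group
    _ = _ := by rw [h5]; group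

theorem orderOf_conj (g x : G) : orderOf (g * x * g⁻¹) = orderOf x := by
  rw [← MulAut.conj_apply, MulEquiv.orderOf_eq]

/-- An element whose order is divisible by `p`, where `p ^ 2` does not divide `|G|`. -/
theorem of_syl [Finite G] {p : ℕ} (hp : p.Prime) (h2 : ¬ p ^ 2 ∣ Nat.card G) {X : Subgroup G} (hX : Nat.card X = p)
    {N : ℕ} (hN : Nat.card (normalizer (X : Set G)) = N) {x : G} (hd : p ∣ orderOf x) : orderOf x ∣ N := by
  obtain ⟨g, hg⟩ := syl_conj hp h2 hX hd
  have h3 : g * x * g⁻¹ ∈ normalizer (X : Set G) := centralizer_le_normalizer _ hg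
  rw [← orderOf_conj g x, ← hN, ← Subgroup.orderOf_mk _ h3]
  exact orderOf_dvd_natCard _

theorem of_syl' [Finite G] {p : ℕ} (hp : p.Prime) (h2 : ¬ p ^ 2 ∣ Nat.card G) {X : Subgroup G} (hX : Nat.card X = p)
    {N : ℕ} (hN : Nat.card (centralizer (X : Set G)) = N) {x : G} (hd : p ∣ orderOf x) : orderOf x ∣ N := by
  obtain ⟨g, hg⟩ := syl_conj hp h2 hX hd
  rw [← orderOf_conj g x, ← hN, ← Subgroup.orderOf_mk _ hg]
  exact orderOf_dvd_natCard _

/-- a power commuting with an element, for an element of odd order: the prime `2` may be removed -/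
theorem comm_of_coprime {x a : G} {m k : ℕ} (hc : Nat.Coprime m (orderOf x))
    (h : Commute (x ^ (m * k)) a) : Commute (x ^ k) a := by
  have h1 : Nat.Coprime m (orderOf (x ^ k)) := Nat.Coprime.coprime_dvd_right (orderOf_pow_dvd k) hc
  obtain ⟨j, hj⟩ := exists_pow_eq_self_of_coprime h1
  have h2 : (x ^ k) ^ m = x ^ (m * k) := by rw [← pow_mul, mul_comm]
  rw [← hj, h2]
  exact h.pow_left j

/-- **The orbits of a `p`-element on the cosets of a subgroup.** -/
theorem exists_conj_pow [Finite G] {p : ℕ} (hp : p.Prime) (H : Subgroup G) {e : ℕ} (he : ¬ p ^ (e + 1) ∣ H.index) {x : G}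
    {k : ℕ} (hx : x ^ p ^ k = 1) : ∃ g : G, g * x ^ p ^ e * g⁻¹ ∈ H := by
  classical
  have hpf : Fact p.Prime := ⟨hp⟩
  by_contra hcon
  push Not at hcon
  apply he
  -- every orbit of `⟨x⟩` has length divisible by `p ^ (e + 1)`
  have hdvd : ∀ a : G ⧸ H, p ^ (e + 1) ∣ Nat.card (orbit (zpowers x) a) := by
    intro a
    have h1 : Nat.card (orbit (zpowers x) a) ∣ Nat.card (zpowers x) := by
      rw [Nat.card_congr (orbitEquivQuotientStabilizer (zpowers x) a)]
      exact Subgroup.index_dvd_card (stabilizer (zpowers x) a)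
    rw [Nat.card_zpowers] at h1
    obtain ⟨j, -, hj⟩ := (Nat.dvd_prime_pow hp).1 (h1.trans (orderOf_dvd_of_pow_eq_one hx))
    rw [hj]
    apply pow_dvd_pow
    by_contra hlt
    have hj' : j ≤ e := by omega
    -- the element fixes `a`
    have h2 : x ^ p ^ e • a = a := by
      have h3 : (stabilizer (zpowers x) a).index = p ^ j := by
        rw [← hj, MulAction.index_stabilizer, Nat.card_coe_set_eq]
      have h4 : (⟨x, mem_zpowers x⟩ : zpowers x) ^ p ^ j ∈ stabilizer (zpowers x) a := by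
        rw [← h3]
        have : (stabilizer (zpowers x) a).Normal := inferInstance
        exact Subgroup.pow_index_mem _ _
      have h5 : (⟨x, mem_zpowers x⟩ : zpowers x) ^ p ^ e ∈ stabilizer (zpowers x) a := by
        obtain ⟨m, rfl⟩ := Nat.exists_eq_add_of_le hj'
        rw [pow_add, pow_mul]
        exact pow_mem h4 _
      exact mem_stabilizer_iff.1 h5
    obtain ⟨g, rfl⟩ := QuotientGroup.mk_surjective a
    apply hcon g⁻¹
    have h3 : ((x ^ p ^ e * g : G) : G ⧸ H) = (g : G ⧸ H) := h2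
    rw [eq_comm, QuotientGroup.eq] at h3
    rw [inv_inv]
    rwa [← mul_assoc] at h3
  have hfin : Finite (G ⧸ H) := inferInstance
  have := Fintype.ofFinite (orbitRel.Quotient (zpowers x) (G ⧸ H))
  have h1 : H.index = ∑ q : orbitRel.Quotient (zpowers x) (G ⧸ H), Nat.card q.orbit := by
    show Nat.card (G ⧸ H) = _
    rw [Nat.card_congr (selfEquivSigmaOrbits' (zpowers x) (G ⧸ H)), Nat.card_sigma]
  rw [h1]
  apply Finset.dvd_sum
  intro q _
  obtain ⟨a, rfl⟩ := Quotient.exists_rep q
  exact hdvd a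

end Ord

section Unip

variable {ι : Type*} [Fintype ι] [DecidableEq ι] {F : Type*} [Field F] (p : ℕ) [Fact p.Prime] [CharP F p]

theorem mat_pow [Nonempty ι] {A : Matrix ι ι F} {k e : ℕ} (h : A ^ p ^ k = 1) (he : Fintype.card ι ≤ p ^ e) :
    A ^ p ^ e = 1 := by
  have h1 : (A - 1) ^ p ^ k = 0 := by
    rw [sub_pow_char_pow_of_commute _ _ (Commute.one_right A), h, one_pow, sub_self]
  have h2 : IsNilpotent (A - 1) := ⟨_, h1⟩
  have h3 : (A - 1).charpoly = Polynomial.X ^ Fintype.card ι :=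
    sub_eq_zero.1 (Matrix.isNilpotent_charpoly_sub_pow_of_isNilpotent h2).eq_zero
  have h4 := Matrix.aeval_self_charpoly (A - 1)
  rw [h3, map_pow, Polynomial.aeval_X] at h4
  have h5 : (A - 1) ^ p ^ e = 0 := pow_eq_zero_of_le he h4
  rw [sub_pow_char_pow_of_commute _ _ (Commute.one_right A), one_pow, sub_eq_zero] at h5
  exact h5

/-- Elements of `p`-power order of a quotient of a linear group by a normal subgroup. -/
theorem quot_pow [Nonempty ι] {G : Type*} [Group G] [Finite G] (f : G →* Matrix ι ι F) (hf : Function.Injective f)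
    (Z : Subgroup G) [Z.Normal] {x : G ⧸ Z} {k e : ℕ} (hx : x ^ p ^ k = 1) (he : Fintype.card ι ≤ p ^ e) :
    x ^ p ^ e = 1 := by
  have hp : p.Prime := Fact.out
  obtain ⟨g, rfl⟩ := QuotientGroup.mk_surjective x
  obtain ⟨a, m, hm, ham⟩ := Nat.exists_eq_pow_mul_and_not_dvd (orderOf_pos g).ne' p hp.ne_one
  have hcop : Nat.Coprime m (orderOf ((g : G) : G ⧸ Z)) := by
    have h1 : orderOf ((g : G) : G ⧸ Z) ∣ p ^ k := orderOf_dvd_of_pow_eq_one hx
    exact Nat.Coprime.coprime_dvd_right h1 (Nat.Coprime.pow_right k ((hp.coprime_iff_not_dvd.2 hm).symm))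
  obtain ⟨s, hs⟩ := exists_pow_eq_self_of_coprime hcop
  have h1 : ((g ^ m) ^ s) ^ p ^ a = 1 := by
    rw [← pow_mul, ← pow_mul, show m * (s * p ^ a) = p ^ a * m * s by ring, ← ham, pow_mul, pow_orderOf_eq_one, one_pow]
  have h2 : ((g ^ m) ^ s) ^ p ^ e = 1 := by
    apply hf
    rw [map_pow, map_one]
    exact mat_pow p (k := a) (by rw [← map_pow, h1, map_one]) he
  have h3 : (((g ^ m) ^ s : G) : G ⧸ Z) = (g : G ⧸ Z) := by
    rw [QuotientGroup.mk_pow, QuotientGroup.mk_pow]
    exact hs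
  rw [← h3, ← QuotientGroup.mk_pow, h2, QuotientGroup.mk_one]

end Unip

section Double

open Cfsg.Agent.H867.MinIdx

variable {X : Type u} [Group X] {Y : Type v} [Group Y]

/-- The action is commutative if the number of orbits of the kernel is small. -/
theorem comm_of_orbits {n : ℕ} (h : MI Y n) (π : X →* Y) (hπ : Function.Surjective π) (hk : π.ker ≤ Subgroup.center X)
    {Ω : Type w} [Finite Ω] [MulAction X Ω] (hc : Nat.card (orbitRel.Quotient π.ker Ω) < n) (x y : X) (i : Ω) :
    x • y • i = y • x • i := by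
  classical
  let Z : Subgroup X := π.ker
  have hZc : ∀ z ∈ Z, ∀ x : X, z * x = x * z := fun z hz x =>
    (Subgroup.mem_center_iff.1 (hk hz) x).symm
  let S : Setoid Ω := MulAction.orbitRel Z Ω
  have hS : ∀ i j : Ω, S.r i j ↔ ∃ z ∈ Z, z • j = i := by
    intro i j
    constructor
    · rintro ⟨⟨z, hz⟩, hzj⟩
      exact ⟨z, hz, hzj⟩
    · rintro ⟨z, hz, hzj⟩
      exact ⟨⟨z, hz⟩, hzj⟩
  have hcompat : ∀ (x : X) (i j : Ω), S.r i j → S.r (x • i) (x • j) := by
    intro x i j hij
    obtain ⟨z, hz, rfl⟩ := (hS i j).1 hij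
    refine (hS _ _).2 ⟨z, hz, ?_⟩
    rw [smul_smul, smul_smul, hZc z hz x]
  let _ : MulAction X (Quotient S) :=
    { smul := fun x => Quotient.map (fun i => x • i) (fun i j hij => hcompat x i j hij)
      one_smul := fun q => Quotient.inductionOn q fun i => congrArg (Quotient.mk S) (one_smul X i)
      mul_smul := fun x y q => Quotient.inductionOn q fun i =>
        congrArg (Quotient.mk S) (mul_smul x y i) }
  let act : X →* Equiv.Perm (Quotient S) := toPermHom X (Quotient S)
  have hactmk : ∀ (x : X) (i : Ω), act x (⟦i⟧ : Quotient S) = ⟦x • i⟧ := fun x i => rfl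
  have hker : Z ≤ act.ker := by
    intro z hz
    rw [MonoidHom.mem_ker]
    ext q
    refine Quotient.inductionOn q fun i => ?_
    rw [hactmk]
    show (⟦z • i⟧ : Quotient S) = ⟦i⟧
    exact Quotient.sound ((hS _ _).2 ⟨z, hz, rfl⟩)
  let g : Y →* Equiv.Perm (Quotient S) := π.liftOfSurjective hπ ⟨act, hker⟩
  have hg : ∀ x, g (π x) = act x := fun x => MonoidHom.liftOfRightInverse_comp_apply _ _ _ _ _
  let _ : MulAction Y (Quotient S) := MulAction.compHom (Quotient S) g
  have hcardQ : Nat.card (Quotient S) < n := hc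
  have htriv : ∀ (x : X) (i : Ω), ∃ z ∈ Z, z • i = x • i := by
    intro x i
    have h1 := h.of_finite hcardQ (π x) (⟦i⟧ : Quotient S)
    have h2 : (π x) • (⟦i⟧ : Quotient S) = act x ⟦i⟧ := by
      show g (π x) ⟦i⟧ = _
      rw [hg]
    rw [h2, hactmk] at h1
    exact (hS _ _).1 (Quotient.exact h1)
  obtain ⟨z, hz, hzi⟩ := htriv x i
  obtain ⟨z', hz', hzi'⟩ := htriv y i
  rw [← hzi', ← hzi, smul_smul, smul_smul, ← hZc z' hz' x, ← hZc z hz y, ← smul_smul,
    ← smul_smul, ← hzi, ← hzi', smul_smul, smul_smul, hZc z' hz' z]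

/-- The orbits of a group all of whose orbits have at least two elements. -/
theorem two_mul_card_le {Z : Type u} [Group Z] {Ω : Type w} [Finite Ω] [MulAction Z Ω] (z : Z) (hz : ∀ i : Ω, z • i ≠ i) :
    2 * Nat.card (orbitRel.Quotient Z Ω) ≤ Nat.card Ω := by
  classical
  have h1 : Function.Injective (fun q : orbitRel.Quotient Z Ω × Bool => if q.2 then z • q.1.out else q.1.out) := by
    rintro ⟨q, b⟩ ⟨q', b'⟩ h
    have hmk : ∀ (q : orbitRel.Quotient Z Ω) (b : Bool), (⟦if b then z • q.out else q.out⟧ : orbitRel.Quotient Z Ω) = q := by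
      intro q b
      cases b
      · exact Quotient.out_eq q
      · conv_rhs => rw [← Quotient.out_eq q]
        exact Quotient.sound ⟨z, rfl⟩
    have hq : q = q' := by
      rw [← hmk q b, ← hmk q' b']
      exact congrArg _ h
    subst hq
    have hb : b = b' := by
      cases b <;> cases b' <;> simp only [if_true, if_false, Bool.false_eq_true] at h <;> try rfl
      · exact absurd h.symm (hz _)
      · exact absurd h (hz _)
    rw [hb]
  have h2 := Nat.card_le_card_of_injective _ h1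
  rw [Nat.card_prod, Nat.card_eq_fintype_card (α := Bool), Fintype.card_bool] at h2
  omega

/-- **A perfect central extension in a simple group.** -/
theorem MI_double {G : Type w} [Group G] [IsSimpleGroup G] {n : ℕ} (h : MI Y n) (hX : commutator X = ⊤) (π : X →* Y)
    (hπ : Function.Surjective π) (hk : π.ker ≤ Subgroup.center X) (f : X →* G) {z : X} (hz : π z = 1) (hfz : f z ≠ 1) :
    MI G (2 * n) := by
  classical
  intro m hm g y
  by_contra hy
  have hinj : Function.Injective g := by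
    rw [← MonoidHom.ker_eq_bot_iff]
    rcases IsSimpleGroup.eq_bot_or_eq_top_of_normal g.ker inferInstance with h1 | h1
    · exact h1
    · exfalso
      apply hy
      have : y ∈ g.ker := by rw [h1]; trivial
      exact this
  have hzc : ∀ x : X, z * x = x * z := fun x => (Subgroup.mem_center_iff.1 (hk hz) x).symm
  let _ : MulAction X (Fin m) := MulAction.compHom (Fin m) (g.comp f)
  have hsmul : ∀ (x : X) (i : Fin m), x • i = g (f x) i := fun x i => rfl
  -- the points moved by `z`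
  let Ω := {i : Fin m // z • i ≠ i}
  have hmem : ∀ (x : X) (i : Fin m), z • i ≠ i → z • (x • i) ≠ x • i := by
    intro x i hi h1
    apply hi
    rw [smul_smul, hzc x, ← smul_smul] at h1
    exact smul_left_cancel x h1
  let _ : MulAction X Ω :=
    { smul := fun x i => ⟨x • i.1, hmem x i.1 i.2⟩
      one_smul := fun i => Subtype.ext (one_smul X i.1)
      mul_smul := fun x y i => Subtype.ext (mul_smul x y i.1) }
  have hval : ∀ (x : X) (i : Ω), (x • i : Ω).1 = x • i.1 := fun _ _ => rfl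
  have h1 : 2 * Nat.card (orbitRel.Quotient π.ker Ω) ≤ Nat.card Ω :=
    two_mul_card_le (⟨z, hz⟩ : π.ker) fun i hi => i.2 (congrArg Subtype.val hi)
  have h2 : Nat.card Ω ≤ m := by
    calc Nat.card Ω ≤ Nat.card (Fin m) := Nat.card_le_card_of_injective _ Subtype.val_injective
      _ = m := by rw [Nat.card_eq_fintype_card, Fintype.card_fin]
  have h3 := comm_of_orbits h π hπ hk (Ω := Ω) (by omega)
  have h4 : commutator X ≤ (toPermHom X Ω).ker := by
    rw [commutator_def, Subgroup.commutator_le]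
    intro a _ b _
    rw [MonoidHom.mem_ker, commutatorElement_def, map_mul, map_mul, map_mul, map_inv, map_inv,
      mul_inv_eq_one, mul_inv_eq_iff_eq_mul]
    ext i
    exact congrArg (fun j : Ω => (j.1 : ℕ)) (h3 a b i)
  have h5 : z ∈ (toPermHom X Ω).ker := h4 (by rw [hX]; trivial)
  apply hfz
  apply hinj
  rw [map_one]
  ext i
  by_contra hi
  have hi' : z • i ≠ i := fun h => hi (by rw [← hsmul, h]; rfl)
  have h6 : z • (⟨i, hi'⟩ : Ω) = ⟨i, hi'⟩ := by
    have := congrArg (fun σ : Equiv.Perm Ω => σ ⟨i, hi'⟩) (MonoidHom.mem_ker.1 h5)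
    exact this
  exact hi' (congrArg Subtype.val h6)

end Double

/-- the least common multiples of the multisets of integers `≥ 2` with sum `n` -/
def tab : ℕ → List ℕ
  | 0 => [1]
  | 2 => [2]
  | 3 => [3]
  | 4 => [4, 2]
  | 5 => [5, 6]
  | 6 => [6, 4, 3, 2]
  | 7 => [7, 10, 12, 6]
  | 8 => [8, 6, 15, 4, 2]
  | 9 => [9, 14, 6, 20, 10, 12, 3]
  | _ => []

theorem tab_step : ∀ n < 10, ∀ a < 10, 2 ≤ a → a ≤ n → ∀ m ∈ tab (n - a), Nat.lcm a m ∈ tab n := by decide +kernel

theorem tab_le : ∀ n < 10, ∀ m ∈ tab n, m ≤ 20 := by decide +kernel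

theorem mem_tab (s : Multiset ℕ) : (∀ a ∈ s, 2 ≤ a) → s.sum ≤ 9 → s.lcm ∈ tab s.sum := by
  induction s using Multiset.induction with
  | empty =>
    intro _ _
    rw [Multiset.lcm_zero, Multiset.sum_zero]
    decide
  | cons a s ih =>
    intro h1 h2
    rw [Multiset.sum_cons] at h2
    rw [Multiset.lcm_cons, Multiset.sum_cons]
    have h3 := ih (fun b hb => h1 b (Multiset.mem_cons_of_mem hb)) (by omega)
    have h4 := h1 a (Multiset.mem_cons_self a s)
    refine tab_step (a + s.sum) (by omega) a (by omega) h4 (by omega) _ ?_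
    rwa [Nat.add_sub_cancel_left]

/-- the orders of the elements of `S₉` -/
theorem perm9 (σ : Equiv.Perm (Fin 9)) : orderOf σ ≤ 20 := by
  rw [← Equiv.Perm.lcm_cycleType]
  have h1 : σ.cycleType.sum ≤ 9 := by
    rw [Equiv.Perm.sum_cycleType]
    exact (Finset.card_le_univ _).trans (le_of_eq (Fintype.card_fin 9))
  exact tab_le _ (by omega) _ (mem_tab _ (fun a ha => Equiv.Perm.two_le_of_mem_cycleType ha) h1)

end Cfsg.Agent.H842.Cyc
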