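import Cfsg.Agent.H832.FourProd
import Cfsg.Agent.S2150
import Cfsg.Agent.S1698
import Cfsg.Agent.H842.Cyc.ExtIdx

/-!
# The indices of the proper subgroups of `Fi24'` (helper842, task 2967 of S3507)

`MI_Fi24`: the proper subgroups have index at least 8192.
-/

set_option autoImplicit false
set_option maxRecDepth 100000

namespace Cfsg.Agent.H842.Cyc.Idx24

open Subgroup Cfsg
open Cfsg.Agent.H867.MinIdx
open Cfsg.Agent.PreUniq.FiTF.Z Cfsg.Agent.CTwoTab.FiTF Cfsg.Agent.KFacts.FiTF
open Cfsg.Agent.KFacts.FiTF.Defs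
open Cfsg.Agent.OrdDiv Cfsg.Agent.CpAut

theorem MI_S (T : OrderTable.{0}) (hA : AllKnown.{0}) : MI S 112 := by
  obtain ⟨F, _, _, hF, ⟨e⟩⟩ := H832.FourProd.exists_psu T hA
  have h1 : MI (PSU 4 F 3) 112 :=
    MI.of_index fun K hK => (S2150.result (F := F) 3 hF (by norm_num)).1 K hK
  exact h1.congr e.symm

/-- `R` in `E` -/
abbrev RE : Subgroup ↥E := R.subgroupOf E

instance normal_RE : RE.Normal :=
  ⟨fun _ hr e => mem_subgroupOf.2 (R_norm (E_z e.2) (mem_subgroupOf.1 hr))⟩

theorem perf_E : commutator ↥E = ⊤ := by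
  have h1 : (commutator ↥E).map E.subtype = E := by
    rw [commutator_def, Subgroup.map_commutator, ← MonoidHom.range_eq_map, range_subtype]
    exact frame.perf
  rw [eq_top_iff]
  intro x _
  have h2 : (x : Spor.Fi24) ∈ (commutator ↥E).map E.subtype := by rw [h1]; exact x.2
  obtain ⟨y, hy, hyx⟩ := h2
  have : y = x := Subtype.ext hyx
  rwa [← this]

theorem perf_quot {G : Type*} [Group G] (N : Subgroup G) [N.Normal] (h : commutator G = ⊤) :
    commutator (G ⧸ N) = ⊤ := by
  have h1 : (commutator G).map (QuotientGroup.mk' N) = commutator (G ⧸ N) := by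
    rw [commutator_def, Subgroup.map_commutator, ← MonoidHom.range_eq_map,
      MonoidHom.range_eq_top.2 (QuotientGroup.mk'_surjective N), commutator_def]
  rw [← h1, h, ← MonoidHom.range_eq_map, MonoidHom.range_eq_top.2 (QuotientGroup.mk'_surjective N)]

open scoped commutatorElement in
theorem MI_quot (T : OrderTable.{0}) (hA : AllKnown.{0}) : MI (↥E ⧸ RE) 112 := by
  let π : ↥E ⧸ RE →* S := QuotientGroup.lift RE (QuotientGroup.mk' (Zc.subgroupOf E)) (fun r hr => by
    rw [QuotientGroup.ker_mk']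
    exact mem_subgroupOf.2 (R_le_Zc (mem_subgroupOf.1 hr)))
  refine (MI_S T hA).cover (perf_quot RE perf_E) π ?_ ?_
  · intro y
    obtain ⟨g, rfl⟩ := QuotientGroup.mk_surjective y
    exact ⟨(g : ↥E ⧸ RE), rfl⟩
  · intro x hx
    obtain ⟨g, rfl⟩ := QuotientGroup.mk_surjective x
    have h1 : (QuotientGroup.mk' (Zc.subgroupOf E)) g = 1 := hx
    rw [QuotientGroup.mk'_apply, QuotientGroup.eq_one_iff, mem_subgroupOf] at h1
    rw [mem_center_iff]
    intro y
    obtain ⟨k, rfl⟩ := QuotientGroup.mk_surjective y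
    rw [← QuotientGroup.mk_mul, ← QuotientGroup.mk_mul, QuotientGroup.eq, mem_subgroupOf]
    have h2 := (mem_Zc.1 (inv_mem h1)).2 ((k : Spor.Fi24)⁻¹) (inv_mem k.2)
    have h3 : (((k * g)⁻¹ * (g * k) : ↥E) : Spor.Fi24) = ⁅((g : ↥E) : Spor.Fi24)⁻¹, (k : Spor.Fi24)⁻¹⁆ := by
      show ((k : Spor.Fi24) * g)⁻¹ * ((g : Spor.Fi24) * k) = _
      rw [commutatorElement_def]
      group
    rw [h3]
    exact h2

/-- **The indices of the proper subgroups of `Fi24'`.** -/
theorem MI_Fi24 (T : OrderTable.{0}) (hA : AllKnown.{0}) : MI Spor.Fi24' 8192 := by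
  have hfin : Finite Spor.Fi24 := Cfsg.Agent.R08.FiTwentyFour.finite_Fi24
  have hs : IsSimpleGroup Spor.Fi24' := S1698.result.1
  intro m hm f x
  let ι : ↥E →* Spor.Fi24' := Subgroup.inclusion frame.EK
  let zE : ↥E := ⟨z, frame.RE frame.zR⟩
  have hz1 : f (ι zE) = 1 := by
    let _ : MulAction ↥E (Fin m) := MulAction.compHom (Fin m) (f.comp ι)
    ext i
    have h1 := ext_idx RE (z := zE) (mem_subgroupOf.2 frame.zR) (fun h => frame.z1 (congrArg Subtype.val h))
      (Subtype.ext frame.zz) (fun g => Subtype.ext (frame.Ez g g.2))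
      (fun r hr s hs => by
        rcases frame.com r (mem_subgroupOf.1 hr) s (mem_subgroupOf.1 hs) with h | h
        · exact Or.inl (Subtype.ext h)
        · exact Or.inr (Subtype.ext h))
      (fun r hr h => by
        rcases frame.ctr r (mem_subgroupOf.1 hr) (fun s hs =>
          congrArg Subtype.val (h ⟨s, frame.RE hs⟩ (mem_subgroupOf.2 hs))) with h | h
        · exact Or.inl (Subtype.ext h)
        · exact Or.inr (Subtype.ext h))
      (by rw [Nat.card_congr (subgroupOfEquivOfLe frame.RE).toEquiv, frame.cardR])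
      (fun B hB hn => by
        rcases frame.irr (B.map E.subtype) (by
          rintro _ ⟨b, hb, rfl⟩
          exact mem_subgroupOf.1 (hB hb)) (by
          rintro g hg _ ⟨b, hb, rfl⟩
          exact ⟨⟨g, hg⟩ * b * ⟨g, hg⟩⁻¹, hn ⟨g, hg⟩ b hb, rfl⟩) with h | h
        · left
          intro b hb
          rcases h b ⟨b, hb, rfl⟩ with h1 | h1
          · exact Or.inl (Subtype.ext h1)
          · exact Or.inr (Subtype.ext h1)
        · right
          apply le_antisymm hB
          intro r hr
          have h1 : (r : Spor.Fi24) ∈ B.map E.subtype := by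
            rw [h]; exact mem_subgroupOf.1 hr
          obtain ⟨b, hb, hbr⟩ := h1
          have : b = r := Subtype.ext hbr
          rwa [← this])
      ((MI_quot T hA).mono (by norm_num)) (Ω := Fin m) (by rw [Nat.card_eq_fintype_card, Fintype.card_fin]; exact hm) i
    exact congrArg Fin.val h1
  rcases IsSimpleGroup.eq_bot_or_eq_top_of_normal f.ker inferInstance with h1 | h1
  · exfalso
    have h2 : ι zE ∈ f.ker := hz1
    rw [h1, mem_bot] at h2
    exact frame.z1 (congrArg Subtype.val h2)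
  · have h2 : x ∈ f.ker := by rw [h1]; trivial
    exact h2

end Cfsg.Agent.H842.Cyc.Idx24
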