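import Cfsg.Prelude.Def_Classical
import Cfsg.Agent.H842.Cyc.Gen

/-!
# The exponents of the Sylow `p`-subgroups of some classical groups in characteristic `p` (helper842, task 2967 of S3507)
-/

set_option autoImplicit false

namespace Cfsg.Agent.H842.Cyc

open Subgroup Cfsg
open scoped Pointwise

section

variable {F : Type*} [Field F] [Finite F] (p : ℕ) [Fact p.Prime] [CharP F p]

theorem POmega_pow {ι : Type} [Fintype ι] [DecidableEq ι] [Nonempty ι] (Q : (ι → F) → F) {x : POmega F Q} {k e : ℕ}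
    (hx : x ^ p ^ k = 1) (he : Fintype.card ι ≤ p ^ e) : x ^ p ^ e = 1 := by
  refine quot_pow p ((Units.coeHom (Matrix ι ι F)).comp ((isometryGroup F Q).subtype.comp (Omega F Q).subtype)) ?_ _ hx he
  intro a b hab
  have h1 : ((a : isometryGroup F Q) : Matrix.GeneralLinearGroup ι F) = ((b : isometryGroup F Q) : _) :=
    Units.ext hab
  exact Subtype.ext (Subtype.ext h1)

theorem PSU_pow {n : ℕ} [NeZero n] {q : ℕ} {x : PSU n F q} {k e : ℕ} (hx : x ^ p ^ k = 1) (he : n ≤ p ^ e) :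
    x ^ p ^ e = 1 := by
  refine quot_pow p ((slToMat n F).comp (SU n F q).subtype) ?_ _ hx (by rwa [Fintype.card_fin])
  intro a b hab
  exact Subtype.ext (Subtype.ext hab)

end

/-- a `3`-element of `PΩ₈⁺(3)` -/
theorem PO8_pow {x : POmega (ZMod 3) (quadFormPlus 4 (ZMod 3))} {k : ℕ} (hx : x ^ 3 ^ k = 1) : x ^ 9 = 1 := by
  have : Fact (Nat.Prime 3) := ⟨Nat.prime_three⟩
  exact POmega_pow 3 _ (e := 2) hx (by simp)

theorem PO7_pow {x : POmega (ZMod 3) (quadFormOdd 3 (ZMod 3))} {k : ℕ} (hx : x ^ 3 ^ k = 1) : x ^ 9 = 1 := by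
  have : Fact (Nat.Prime 3) := ⟨Nat.prime_three⟩
  exact POmega_pow 3 _ (e := 2) hx (by simp)

/-- The 3-elements of a group containing `F ⊴ L ≤ S ⊔ L = N`, `S` and `L` commuting, `S` and `L / F` of order `6`. -/
theorem three_abs {G : Type*} [Group G] [Finite G] {S L : Subgroup G} (hS : ∀ s ∈ S, s ^ 6 = 1)
    (hc : ∀ s ∈ S, ∀ y ∈ L, s * y = y * s) {Φ : Subgroup ↥L} [Φ.Normal] (hq : ∀ q : ↥L ⧸ Φ, q ^ 6 = 1)
    (hΦ : ∀ f : ↥Φ, ∀ k, f ^ 3 ^ k = 1 → f ^ 9 = 1) {n : G} (hn : n ∈ S ⊔ L) {k : ℕ} (hk : n ^ 3 ^ k = 1) :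
    n ^ 27 = 1 := by
  obtain ⟨s, hs, t, ht, rfl⟩ : ∃ s ∈ S, ∃ t ∈ L, s * t = n := by
    have h1 : L ≤ normalizer (S : Set G) := by
      intro y hy
      rw [mem_normalizer_iff]
      intro z
      constructor
      · intro hz
        rwa [← hc z hz y hy, mul_inv_cancel_right]
      · intro hz
        have h2 : y⁻¹ * (y * z * y⁻¹) * y ∈ S := by
          have h3 := hc _ hz y⁻¹ (inv_mem hy)
          rw [← h3, inv_mul_cancel_right]
          exact hz
        have h3 : y⁻¹ * (y * z * y⁻¹) * y = z := by group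
        rwa [h3] at h2
    have h2 : n ∈ (S : Set G) * (L : Set G) := by
      rw [← coe_mul_of_right_le_normalizer_left S L h1]
      exact hn
    obtain ⟨s, hs, t, ht, hst⟩ := Set.mem_mul.1 h2
    exact ⟨s, hs, t, ht, hst⟩
  have hst : Commute s t := hc s hs t ht
  have h6 : (s * t) ^ 6 = t ^ 6 := by rw [hst.mul_pow, hS s hs, one_mul]
  have hmem : (⟨t, ht⟩ : ↥L) ^ 6 ∈ Φ := by
    rw [← QuotientGroup.eq_one_iff, QuotientGroup.mk_pow]
    exact hq _
  have h1 : (⟨(⟨t, ht⟩ : ↥L) ^ 6, hmem⟩ : ↥Φ) ^ 3 ^ k = 1 := by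
    apply Subtype.ext
    apply Subtype.ext
    show (t ^ 6) ^ 3 ^ k = 1
    rw [← h6, ← pow_mul, mul_comm, pow_mul, hk, one_pow]
  have h2 := congrArg (fun f : ↥Φ => ((f : ↥L) : G)) (hΦ _ k h1)
  have h3 : (t ^ 6) ^ 9 = 1 := h2
  have h4 : (s * t) ^ 54 = 1 := by
    rw [← h3, ← h6, ← pow_mul]
  have h5 : orderOf (s * t) ∣ Nat.gcd 54 (3 ^ k) :=
    Nat.dvd_gcd (orderOf_dvd_of_pow_eq_one h4) (orderOf_dvd_of_pow_eq_one hk)
  have h6 : Nat.gcd 54 (3 ^ k) ∣ 27 := by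
    have h7 : Nat.gcd 54 (3 ^ k) ∣ 2 * 27 := Nat.gcd_dvd_left 54 _
    have h8 : Nat.Coprime (Nat.gcd 54 (3 ^ k)) 2 := by
      apply Nat.Coprime.coprime_dvd_left (Nat.gcd_dvd_right 54 (3 ^ k))
      exact Nat.Coprime.pow_left k (by norm_num)
    exact h8.dvd_of_dvd_mul_left h7
  exact orderOf_dvd_iff_pow_eq_one.1 (h5.trans h6)

theorem card_sup_of_commute {G : Type*} [Group G] {S L : Subgroup G} (h : S ⊓ L = ⊥)
    (hc : ∀ s ∈ S, ∀ y ∈ L, s * y = y * s) : Nat.card ↥(S ⊔ L) = Nat.card ↥S * Nat.card ↥L := by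
  have comm : ∀ (m : ↥S) (n : ↥L), Commute (S.subtype m) (L.subtype n) := fun m n => hc m m.2 n n.2
  have h1 : Function.Injective (MonoidHom.noncommCoprod S.subtype L.subtype comm) := by
    rw [MonoidHom.noncommCoprod_injective]
    refine ⟨S.subtype_injective, L.subtype_injective, ?_⟩
    rw [range_subtype, range_subtype, disjoint_iff]
    exact h
  have h2 : (MonoidHom.noncommCoprod S.subtype L.subtype comm).range = S ⊔ L := by
    rw [MonoidHom.noncommCoprod_range, range_subtype, range_subtype]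
  rw [← h2, ← Nat.card_congr (MonoidHom.ofInjective h1).toEquiv, Nat.card_prod]

theorem perm3_pow (q : Equiv.Perm (Fin 3)) : q ^ 6 = 1 := by
  have h1 := pow_card_eq_one (x := q)
  rwa [Fintype.card_perm, Fintype.card_fin] at h1

end Cfsg.Agent.H842.Cyc
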